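import Cfsg.Agent.Lib.Ree.Abs35
import Mathlib.GroupTheory.SemidirectProduct

/-!
# The direct cube of a Ree group is not recognisable by its element orders

The centraliser `L` of the involution `t0` acts on the `(-1)`-eigenspace `W` of `t0` on the seven
dimensional module.  Elements of `L` with a nonzero fixed vector on `W` have order at most three.  So
the element orders of `W^s ⋊ L` are element orders of the Ree group, and `R × R × (W^s ⋊ L)` has the
same element orders as `R × R × R`.
-/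

set_option autoImplicit false
set_option linter.unusedSectionVars false
set_option linter.unusedSimpArgs false
set_option linter.unnecessarySeqFocus false

namespace Cfsg.Agent.Lib.Ree.Abs

open Matrix Cfsg.Agent.Lib.Ree.Sigma Cfsg.Agent.Lib.Ree.Words Cfsg.Agent.Lib.Ree.Psi
open scoped MatrixGroups

section semi

variable {A L : Type*} [AddCommGroup A] [_root_.Group L] (φ : L →* MulAut (Multiplicative A))

theorem sd_right_pow (p : Multiplicative A ⋊[φ] L) (n : ℕ) : (p ^ n).right = p.right ^ n :=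
  map_pow (SemidirectProduct.rightHom (φ := φ)) p n

theorem sd_cube (h3 : ∀ a : A, a + a + a = 0) (r : Multiplicative A ⋊[φ] L) (hr : r.right = 1) : r ^ 3 = 1 := by
  have e : r = SemidirectProduct.inl r.left := by
    ext
    · simp
    · simp [hr]
  rw [e, ← map_pow]
  have h : r.left ^ 3 = 1 := by
    have := h3 (Multiplicative.toAdd r.left)
    apply Multiplicative.toAdd.injective
    rw [toAdd_pow, toAdd_one, ← this]
    abel
  rw [h, map_one]

theorem sd_six (h3 : ∀ a : A, a + a + a = 0) (p : Multiplicative A ⋊[φ] L) (hp : p.right * p.right = 1) :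
    p ^ 6 = 1 := by
  have e : p ^ 6 = (p ^ 2) ^ 3 := by rw [← pow_mul]
  rw [e]
  apply sd_cube φ h3
  rw [sd_right_pow, pow_two, hp]

theorem sd_nine (h3 : ∀ a : A, a + a + a = 0) (p : Multiplicative A ⋊[φ] L) (hp : p.right * p.right * p.right = 1) :
    p ^ 9 = 1 := by
  have e : p ^ 9 = (p ^ 3) ^ 3 := by rw [← pow_mul]
  rw [e]
  apply sd_cube φ h3
  rw [sd_right_pow, pow_three, ← mul_assoc, hp]

theorem sd_order_of_inj [Finite A] (p : Multiplicative A ⋊[φ] L)
    (hinj : ∀ v : A, Multiplicative.toAdd (φ p.right (Multiplicative.ofAdd v)) = v → v = 0) :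
    orderOf p = orderOf p.right := by
  let f : A → A := fun v => v - Multiplicative.toAdd (φ p.right (Multiplicative.ofAdd v))
  have hf : Function.Injective f := by
    intro a b hab
    have h1 : Multiplicative.toAdd (φ p.right (Multiplicative.ofAdd (a - b))) = a - b := by
      have h2 : Multiplicative.ofAdd (a - b) = Multiplicative.ofAdd a * (Multiplicative.ofAdd b)⁻¹ := by
        rw [sub_eq_add_neg, ofAdd_add, ofAdd_neg]
      rw [h2, map_mul, map_inv, toAdd_mul, toAdd_inv]
      have h3 : a - Multiplicative.toAdd (φ p.right (Multiplicative.ofAdd a)) =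
          b - Multiplicative.toAdd (φ p.right (Multiplicative.ofAdd b)) := hab
      rw [← sub_eq_add_neg]
      have h4 : Multiplicative.toAdd ((φ p.right) (Multiplicative.ofAdd a)) =
          a - b + Multiplicative.toAdd (φ p.right (Multiplicative.ofAdd b)) := by
        calc Multiplicative.toAdd ((φ p.right) (Multiplicative.ofAdd a))
            = a - (a - Multiplicative.toAdd ((φ p.right) (Multiplicative.ofAdd a))) := by abel
          _ = a - (b - Multiplicative.toAdd (φ p.right (Multiplicative.ofAdd b))) := by rw [h3]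
          _ = _ := by abel
      rw [h4]
      abel
    exact sub_eq_zero.1 (hinj _ h1)
  obtain ⟨w, hw⟩ := (Finite.injective_iff_surjective.1 hf) (Multiplicative.toAdd p.left)
  let c : Multiplicative A ⋊[φ] L := SemidirectProduct.inl (Multiplicative.ofAdd w)
  have e : p = c * SemidirectProduct.inr p.right * c⁻¹ := by
    apply SemidirectProduct.ext
    · have h1 : (c * SemidirectProduct.inr p.right * c⁻¹).left =
          Multiplicative.ofAdd w * (φ p.right (Multiplicative.ofAdd w))⁻¹ := by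
        simp [c]
      rw [h1]
      apply Multiplicative.toAdd.injective
      rw [toAdd_mul, toAdd_inv, ← hw]
      simp only [f, toAdd_ofAdd]
      abel
    · simp [c]
  have e2 : orderOf (c * SemidirectProduct.inr p.right * c⁻¹) = orderOf p.right := by
    rw [orderOf_conj', orderOf_injective _ SemidirectProduct.inr_injective]
  rw [← e2, ← e]

end semi

namespace Dat

variable {K G : Type*} [Field K] [Fintype K] [CharP K 3] [_root_.Group G] (D : Dat K G)

/-- The matrix of an element of the group. -/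
noncomputable def RR (x : G) : Matrix (Fin 7) (Fin 7) K := (D.rep x : Matrix (Fin 7) (Fin 7) K)

theorem RR_mul (x y : G) (v : Fin 7 → K) : D.RR (x * y) *ᵥ v = D.RR x *ᵥ (D.RR y *ᵥ v) := by
  rw [Matrix.mulVec_mulVec, RR, RR, RR, map_mul, Units.val_mul]

theorem RR_one (v : Fin 7 → K) : D.RR 1 *ᵥ v = v := by
  rw [RR, map_one, Units.val_one, Matrix.one_mulVec]

theorem RR_add (x : G) (v w : Fin 7 → K) : D.RR x *ᵥ (v + w) = D.RR x *ᵥ v + D.RR x *ᵥ w :=
  Matrix.mulVec_add _ _ _

theorem RR_neg (x : G) (v : Fin 7 → K) : D.RR x *ᵥ (-v) = - (D.RR x *ᵥ v) :=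
  Matrix.mulVec_neg _ _

/-- The `(-1)`-eigenspace of the involution on the seven dimensional module. -/
def Wt : AddSubgroup (Fin 7 → K) where
  carrier := {v | D.RR D.t0 *ᵥ v = -v}
  add_mem' := by
    intro v w hv hw
    show D.RR D.t0 *ᵥ (v + w) = -(v + w)
    rw [RR_add, hv, hw, neg_add]
  zero_mem' := by
    show D.RR D.t0 *ᵥ 0 = -0
    simp
  neg_mem' := by
    intro v hv
    show D.RR D.t0 *ᵥ (-v) = - -v
    rw [RR_neg, hv]

theorem mem_Wt {v : Fin 7 → K} : v ∈ D.Wt ↔ D.RR D.t0 *ᵥ v = -v := Iff.rfl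

theorem RR_t0 (v : Fin 7 → K) :
    D.RR D.t0 *ᵥ v = ![- v 0, v 1, - v 2, v 3, - v 4, v 5, - v 6] := by
  rw [RR, t0, D.rep_d, d7_mulVec]
  simp only [Units.val_neg, Units.val_one, map_neg, map_one]
  funext i
  fin_cases i <;> simp

theorem Wt_coord {v : Fin 7 → K} (hv : v ∈ D.Wt) : v 1 = 0 ∧ v 3 = 0 ∧ v 5 = 0 := by
  have h := (D.mem_Wt).1 hv
  rw [RR_t0] at h
  have h3 := D.three
  have key : ∀ y : K, y = - y → y = 0 := by
    intro y hy
    have h2 : y + y + y = y := by
      nth_rewrite 2 [hy]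
      ring
    have h4 : 3 * y = 0 := by rw [h3, zero_mul]
    have h5 : y + y + y = 3 * y := by ring
    rw [← h2, h5, h4]
  refine ⟨key _ (congrFun h 1), key _ (congrFun h 3), key _ (congrFun h 5)⟩

theorem Wt_of_coord {v : Fin 7 → K} (h1 : v 1 = 0) (h3 : v 3 = 0) (h5 : v 5 = 0) : v ∈ D.Wt := by
  rw [mem_Wt, RR_t0]
  funext i
  fin_cases i <;> simp [h1, h3, h5]

theorem Wt_three (v : D.Wt) : v + v + v = 0 := by
  apply Subtype.ext
  funext i
  have h3 := D.three
  show (v : Fin 7 → K) i + (v : Fin 7 → K) i + (v : Fin 7 → K) i = 0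
  linear_combination ((v : Fin 7 → K) i) * h3

/-- The centraliser of the involution. -/
abbrev LL : Subgroup G := Subgroup.centralizer {D.t0}

theorem mem_LL {x : G} : x ∈ D.LL ↔ x * D.t0 = D.t0 * x := Subgroup.mem_centralizer_singleton_iff

theorem RR_mem {x : G} (hx : x ∈ D.LL) {v : Fin 7 → K} (hv : v ∈ D.Wt) : D.RR x *ᵥ v ∈ D.Wt := by
  rw [mem_Wt, ← RR_mul, ← (D.mem_LL).1 hx, RR_mul, (D.mem_Wt).1 hv, RR_neg]

section act

variable (s : ℕ)

/-- The action on the powers of the eigenspace. -/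
noncomputable def actE (x : D.LL) : (Fin s → D.Wt) ≃+ (Fin s → D.Wt) where
  toFun f := fun i => ⟨D.RR x *ᵥ (f i : Fin 7 → K), D.RR_mem x.2 (f i).2⟩
  invFun f := fun i => ⟨D.RR (x⁻¹ : D.LL) *ᵥ (f i : Fin 7 → K), D.RR_mem (x⁻¹ : D.LL).2 (f i).2⟩
  left_inv f := by
    funext i
    apply Subtype.ext
    show D.RR (x⁻¹ : D.LL) *ᵥ (D.RR x *ᵥ (f i : Fin 7 → K)) = f i
    rw [← RR_mul]
    simp [RR_one]
  right_inv f := by
    funext i
    apply Subtype.ext
    show D.RR x *ᵥ (D.RR (x⁻¹ : D.LL) *ᵥ (f i : Fin 7 → K)) = f i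
    rw [← RR_mul]
    simp [RR_one]
  map_add' f g := by
    funext i
    apply Subtype.ext
    show D.RR x *ᵥ ((f i : Fin 7 → K) + (g i : Fin 7 → K)) = D.RR x *ᵥ (f i : Fin 7 → K) + D.RR x *ᵥ (g i : Fin 7 → K)
    rw [RR_add]

theorem actE_apply (x : D.LL) (f : Fin s → D.Wt) (i : Fin s) :
    ((D.actE s x f i : D.Wt) : Fin 7 → K) = D.RR x *ᵥ (f i : Fin 7 → K) := rfl

/-- The action as a homomorphism. -/
noncomputable def actP : D.LL →* MulAut (Multiplicative (Fin s → D.Wt)) where
  toFun x := AddEquiv.toMultiplicative (D.actE s x)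
  map_one' := by
    apply MulEquiv.ext
    intro f
    apply Multiplicative.toAdd.injective
    funext i
    apply Subtype.ext
    show D.RR ((1 : D.LL) : G) *ᵥ (Multiplicative.toAdd f i : Fin 7 → K) = _
    simp only [Subgroup.coe_one, RR_one]
    rfl
  map_mul' x y := by
    apply MulEquiv.ext
    intro f
    apply Multiplicative.toAdd.injective
    funext i
    apply Subtype.ext
    show D.RR ((x * y : D.LL) : G) *ᵥ (Multiplicative.toAdd f i : Fin 7 → K) =
      D.RR x *ᵥ (D.RR y *ᵥ (Multiplicative.toAdd f i : Fin 7 → K))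
    rw [← RR_mul]
    rfl

theorem actP_apply (x : D.LL) (f : Fin s → D.Wt) (i : Fin s) :
    ((Multiplicative.toAdd (D.actP s x (Multiplicative.ofAdd f)) i : D.Wt) : Fin 7 → K) =
      D.RR x *ᵥ (f i : Fin 7 → K) := rfl

end act

section fix

/-- A fixed tensor forces the trace of the matrix to be fixed up to sign by the twist. -/
theorem tr_lemma {α β γ δ A B C E x y z w ε : K} (hdet : α * δ - β * γ = 1) (hdet' : A * E - B * C = 1)
    (hε : ε * ε = 1)
    (e0 : A * α * x + A * β * z + B * α * y - B * β * w = ε * x)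
    (e2 : A * γ * x + A * δ * z + B * γ * y - B * δ * w = ε * z)
    (e4 : C * α * x + C * β * z + E * α * y - E * β * w = ε * y)
    (e6 : -(C * γ) * x - C * δ * z - E * γ * y + E * δ * w = ε * w) :
    (ε * (α + δ) - (A + E)) * x = 0 ∧ (ε * (α + δ) - (A + E)) * y = 0 ∧
      (ε * (α + δ) - (A + E)) * z = 0 ∧ (ε * (α + δ) - (A + E)) * w = 0 := by
  refine ⟨?_, ?_, ?_, ?_⟩ <;> grind

/-- The trace of a matrix with a fixed vector up to sign on the eigenspace. -/
theorem tr_of_fix {g : SL(2, K)} {v : Fin 7 → K} (hv : v ∈ D.Wt) (hv0 : v ≠ 0) {ε : K} (hε : ε = 1 ∨ ε = -1)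
    (h : D.RR (D.psi g) *ᵥ v = ε • v) : (g 0 0 + g 1 1) ^ 3 = g 0 0 + g 1 1 := by
  obtain ⟨h1, h3, h5⟩ := D.Wt_coord hv
  have hε' : ε * ε = 1 := by
    rcases hε with rfl | rfl <;> ring
  rw [RR, D.rep_psi, psiMat, PsiMat_mulVec, h1, h3, h5] at h
  have e0 := congrFun h 0
  have e2 := congrFun h 2
  have e4 := congrFun h 4
  have e6 := congrFun h 6
  simp only [Matrix.cons_val, Pi.smul_apply, smul_eq_mul] at e0 e2 e4 e6
  have hdet := sl_det g
  have hdet' : D.f.φ (g 0 0) * D.f.φ (g 1 1) - D.f.φ (g 0 1) * D.f.φ (g 1 0) = 1 := by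
    rw [← map_mul, ← map_mul, ← map_sub, hdet, map_one]
  obtain ⟨t0', t1, t2, t3⟩ := tr_lemma hdet hdet' hε' (x := v 0) (y := v 4) (z := v 2) (w := v 6)
    (by linear_combination e0) (by linear_combination e2) (by linear_combination e4) (by linear_combination e6)
  have hne : ∃ c : K, c ≠ 0 ∧ (ε * (g 0 0 + g 1 1) - (D.f.φ (g 0 0) + D.f.φ (g 1 1))) * c = 0 := by
    by_contra hc
    push Not at hc
    apply hv0
    funext i
    by_contra hi
    fin_cases i
    · exact hc _ hi t0'
    · exact hi h1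
    · exact hc _ hi t2
    · exact hi h3
    · exact hc _ hi t1
    · exact hi h5
    · exact hc _ hi t3
  obtain ⟨c, hc0, hc⟩ := hne
  have hk := (mul_eq_zero.1 hc).resolve_right hc0
  have hφ : D.f.φ (g 0 0 + g 1 1) = ε * (g 0 0 + g 1 1) := by
    rw [map_add]
    linear_combination -hk
  have hφε : D.f.φ ε = ε := by
    rcases hε with rfl | rfl <;> simp
  have h6 := D.f.φφ (g 0 0 + g 1 1)
  rw [hφ, map_mul, hφε, hφ] at h6
  rw [← h6]
  linear_combination (g 0 0 + g 1 1) * hε'

/-- Cayley-Hamilton for traces in the prime field. -/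
theorem sl_cases {g : SL(2, K)} (h : (g 0 0 + g 1 1) ^ 3 = g 0 0 + g 1 1) :
    g * g = nI ∨ g * g * g = 1 ∨ g * g * g = nI := by
  have hdet := sl_det g
  have h3 : (3 : K) = 0 := three_eq_zero
  obtain ⟨n1, n2, n3, n4⟩ := nI_apply (K := K)
  have o1 : (1 : SL(2, K)) 0 0 = 1 := by simp
  have o2 : (1 : SL(2, K)) 0 1 = 0 := by simp
  have o3 : (1 : SL(2, K)) 1 0 = 0 := by simp
  have o4 : (1 : SL(2, K)) 1 1 = 1 := by simp
  have hfac : (g 0 0 + g 1 1) * ((g 0 0 + g 1 1) - 1) * ((g 0 0 + g 1 1) + 1) = 0 := by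
    linear_combination h
  rcases mul_eq_zero.1 hfac with hf | hf
  · rcases mul_eq_zero.1 hf with hf | hf
    · left
      have hd : g 1 1 = - g 0 0 := by linear_combination hf
      apply sl_ext <;> simp only [sl_mul_apply, n1, n2, n3, n4, hd] <;> rw [hd] at hdet <;> grind
    · -- trace one
      right; right
      have hd : g 1 1 = 1 - g 0 0 := by linear_combination hf
      rw [hd] at hdet
      apply sl_ext <;> simp only [sl_mul_apply, n1, n2, n3, n4, hd] <;> grind
  · -- trace minus one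
    right; left
    have hd : g 1 1 = -1 - g 0 0 := by linear_combination hf
    rw [hd] at hdet
    apply sl_ext <;> simp only [sl_mul_apply, o1, o2, o3, o4, hd] <;> grind

/-- Elements of the centraliser with a nonzero fixed vector on the eigenspace have small order. -/
theorem fix_cases {x : G} (hx : x ∈ D.LL) {v : Fin 7 → K} (hv : v ∈ D.Wt) (hv0 : v ≠ 0)
    (h : D.RR x *ᵥ v = v) : x * x = 1 ∨ x * x * x = 1 := by
  obtain ⟨g, hg⟩ := D.cent_t0_form ((D.mem_LL).1 hx).symm
  have hψ1 : ∀ {g : SL(2, K)}, g * g = nI → D.psi g * D.psi g = 1 := by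
    intro g h
    rw [← map_mul, h, psi_nI]
  have hψ2 : ∀ {g : SL(2, K)}, g * g * g = 1 → D.psi g * D.psi g * D.psi g = 1 := by
    intro g h
    rw [← map_mul, ← map_mul, h, map_one]
  have hψ3 : ∀ {g : SL(2, K)}, g * g * g = nI → D.psi g * D.psi g * D.psi g = 1 := by
    intro g h
    rw [← map_mul, ← map_mul, h, psi_nI]
  rcases hg with rfl | rfl
  · have hτ := D.tr_of_fix hv hv0 (ε := 1) (Or.inl rfl) (by rw [one_smul]; exact h)
    rcases sl_cases hτ with h1 | h1 | h1
    · exact Or.inl (hψ1 h1)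
    · exact Or.inr (hψ2 h1)
    · exact Or.inr (hψ3 h1)
  · have hcomm : D.t0 * D.psi g = D.psi g * D.t0 := D.t0_comm_psi g
    have hneg : D.RR (D.psi g) *ᵥ v = (-1 : K) • v := by
      have h1 : D.RR D.t0 *ᵥ (D.RR (D.psi g) *ᵥ v) = v := by
        rw [← RR_mul]
        exact h
      have h2 : D.RR D.t0 *ᵥ (D.RR (D.psi g) *ᵥ v) = - (D.RR (D.psi g) *ᵥ v) := by
        have hL : D.psi g ∈ D.LL := (D.mem_LL).2 hcomm.symm
        exact (D.mem_Wt).1 (D.RR_mem hL hv)
      rw [h2] at h1
      rw [neg_one_smul]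
      exact neg_eq_iff_eq_neg.1 h1
    have hτ := D.tr_of_fix hv hv0 (ε := -1) (Or.inr rfl) hneg
    have hthree : D.psi g * D.psi g * D.psi g = 1 → False := by
      intro h3
      have h4 : v = - v := by
        have h5 : D.RR (D.psi g * D.psi g * D.psi g) *ᵥ v = - v := by
          have hneg' : D.RR (D.psi g) *ᵥ v = - v := by rw [hneg, neg_one_smul]
          rw [RR_mul, RR_mul, hneg', RR_neg, hneg', neg_neg, hneg']
        rw [h3, RR_one] at h5
        exact h5
      apply hv0
      funext i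
      have h6 := congrFun h4 i
      have h7 := D.three
      simp only [Pi.neg_apply] at h6
      show v i = 0
      linear_combination (v i) * h7 - h6
    rcases sl_cases hτ with h1 | h1 | h1
    · left
      have h2 := hψ1 h1
      calc D.t0 * D.psi g * (D.t0 * D.psi g) = (D.t0 * D.t0) * (D.psi g * D.psi g) := by
            rw [mul_assoc D.t0 (D.psi g), ← mul_assoc (D.psi g) D.t0, ← hcomm]
            group
        _ = 1 := by rw [D.t0_sq, h2, one_mul]
    · exact (hthree (hψ2 h1)).elim
    · exact (hthree (hψ3 h1)).elim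

end fix

end Dat

end Cfsg.Agent.Lib.Ree.Abs
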