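import Cfsg.Agent.Lib.Ree.Abs36

/-!
# The direct cube of a Ree group is not recognisable by its element orders: the end of the proof
-/

set_option autoImplicit false
set_option linter.unusedSectionVars false
set_option linter.unusedSimpArgs false
set_option linter.unnecessarySeqFocus false

namespace Cfsg.Agent.Lib.Ree.Abs

open Matrix Cfsg.Agent.Lib.Ree.Sigma Cfsg.Agent.Lib.Ree.Words Cfsg.Agent.Lib.Ree.Psi
open scoped MatrixGroups

section semi

variable {A L : Type*} [AddCommGroup A] [_root_.Group L] (φ : L →* MulAut (Multiplicative A))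

theorem sd_order_inr (x : L) : orderOf (SemidirectProduct.inr (φ := φ) x) = orderOf x :=
  orderOf_injective (SemidirectProduct.inr (φ := φ)) SemidirectProduct.inr_injective x

theorem sd_of_dvd (y : Multiplicative A ⋊[φ] L) {d : ℕ} (h0 : orderOf y ≠ 0) (hd : d ∣ orderOf y) :
    ∃ p : Multiplicative A ⋊[φ] L, orderOf p = d :=
  ⟨y ^ (orderOf y / d), orderOf_pow_orderOf_div h0 hd⟩

theorem sd_left_three (p : Multiplicative A ⋊[φ] L) : Multiplicative.toAdd (p ^ 3).left =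
    Multiplicative.toAdd p.left + (Multiplicative.toAdd (φ p.right p.left) +
      Multiplicative.toAdd (φ p.right (φ p.right p.left))) := by
  rw [pow_three]
  simp only [SemidirectProduct.mul_left, map_mul, toAdd_mul]

end semi

/-- A copy of `Fin n` without algebraic structure. -/
def TZ (n : ℕ) : Type := Fin n

instance (n : ℕ) : Fintype (TZ n) := inferInstanceAs (Fintype (Fin n))

theorem card_TZ (n : ℕ) : Fintype.card (TZ n) = n := Fintype.card_fin n

theorem exists_type_zero {X : Type*} [_root_.Group X] [Finite X] : ∃ (H : Type) (_ : _root_.Group H) (_ : Fintype H),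
    Fintype.card H = Nat.card X ∧ Set.range (orderOf : H → ℕ) = Set.range (orderOf : X → ℕ) := by
  let e : X ≃ TZ (Nat.card X) := Finite.equivFin X
  letI inst : _root_.Group (TZ (Nat.card X)) := e.symm.group
  have hmul : ∀ a b : TZ (Nat.card X), e.symm (a * b) = e.symm a * e.symm b := by
    intro a b
    show e.symm (e (e.symm a * e.symm b)) = _
    simp
  let E : TZ (Nat.card X) ≃* X := { e.symm with map_mul' := hmul }
  refine ⟨TZ (Nat.card X), inst, inferInstance, card_TZ _, ?_⟩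
  apply Set.eq_of_subset_of_subset
  · rintro _ ⟨x, rfl⟩
    exact ⟨E x, MulEquiv.orderOf_eq E x⟩
  · rintro _ ⟨x, rfl⟩
    exact ⟨E.symm x, MulEquiv.orderOf_eq E.symm x⟩

namespace Dat

variable {K G : Type*} [Field K] [Fintype K] [CharP K 3] [_root_.Group G] (D : Dat K G)

/-- The group with a large normal subgroup. -/
abbrev CC (s : ℕ) : Type _ := Multiplicative (Fin s → D.Wt) ⋊[D.actP s] D.LL

theorem Wt_three' (s : ℕ) (a : Fin s → D.Wt) : a + a + a = 0 := by
  funext i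
  exact D.Wt_three (a i)

section main

variable [Finite G] (hm : 1 ≤ D.m)

include hm

/-- The element orders of the large group are element orders of the Ree group. -/
theorem CC_order (s : ℕ) (p : D.CC s) : ∃ g : G, orderOf g = orderOf p := by
  by_cases hinj : ∀ v : Fin s → D.Wt, Multiplicative.toAdd (D.actP s p.right (Multiplicative.ofAdd v)) = v → v = 0
  · rw [sd_order_of_inj _ p hinj]
    exact ⟨(p.right : G), Subgroup.orderOf_coe _⟩
  · push Not at hinj
    obtain ⟨v, hv, hv0⟩ := hinj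
    obtain ⟨i, hi⟩ : ∃ i, v i ≠ 0 := by
      by_contra hc
      push Not at hc
      exact hv0 (funext hc)
    have hfix : D.RR (p.right : G) *ᵥ (v i : Fin 7 → K) = (v i : Fin 7 → K) := by
      have h1 := congrArg (fun f : Fin s → D.Wt => ((f i : D.Wt) : Fin 7 → K)) hv
      exact h1
    have hne : (v i : Fin 7 → K) ≠ 0 := by
      intro hc
      exact hi (Subtype.ext hc)
    rcases D.fix_cases p.right.2 (v i).2 hne hfix with h | h
    · have h6 : p ^ 6 = 1 := sd_six _ (D.Wt_three' s) p (Subtype.ext h)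
      have hd := orderOf_dvd_of_pow_eq_one h6
      exact (D.order_iff hm _).2 (Or.inl hd)
    · have h9 : p ^ 9 = 1 := sd_nine _ (D.Wt_three' s) p (Subtype.ext h)
      have hd := orderOf_dvd_of_pow_eq_one h9
      exact (D.order_iff hm _).2 (Or.inr (Or.inl hd))

omit hm in
theorem CC_of_L (s : ℕ) {y : G} (hy : y ∈ D.LL) {d : ℕ} (hd : d ∣ orderOf y) : ∃ p : D.CC s, orderOf p = d := by
  let z : D.LL := ⟨y, hy⟩
  have hz : orderOf z = orderOf y := Subgroup.orderOf_mk y hy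
  have h1 : orderOf (SemidirectProduct.inr (φ := D.actP s) z) = orderOf y := by
    rw [sd_order_inr, hz]
  exact sd_of_dvd _ _ (by rw [h1]; exact (orderOf_pos y).ne') (by rw [h1]; exact hd)

omit hm in
theorem exists_gen_mem (H : Subgroup G) (hH : IsCyclic H) : ∃ y ∈ H, orderOf y = Nat.card H := by
  obtain ⟨g, hg⟩ := IsCyclic.exists_ofOrder_eq_natCard (α := H)
  exact ⟨g, g.2, by rw [Subgroup.orderOf_coe, hg]⟩

omit hm in
theorem RR_up1 (v : Fin 7 → K) : D.RR (D.psi (up 1)) *ᵥ v =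
    ![v 0 + v 2 + v 4 - v 6, v 1 - v 3 - v 5, v 2 - v 6, v 3 - v 5, v 4 - v 6, v 5, v 6] := by
  obtain ⟨h1, h2, h3, h4⟩ := up_apply (1 : K)
  rw [RR, D.rep_psi, psiMat, PsiMat_mulVec, h1, h2, h3, h4]
  simp only [map_one, map_zero]
  funext i
  fin_cases i <;> simp <;> ring

omit hm in
theorem psi_up1_cube : D.psi (up (1 : K)) * D.psi (up 1) * D.psi (up 1) = 1 := by
  rw [psi_up, D.up_mul, D.up_mul, ← D.u_zero]
  have h3 := D.three
  congr 1
  · linear_combination (D.f.φ (-1)) * h3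
  · ring

omit hm in
/-- The element of order nine. -/
theorem CC_nine (s : ℕ) (hs : 0 < s) : ∃ p : D.CC s, orderOf p = 9 := by
  let x₀ : D.LL := ⟨D.psi (up 1), (D.mem_LL).2 (D.t0_comm_psi _).symm⟩
  let e₆ : Fin 7 → K := ![0, 0, 0, 0, 0, 0, 1]
  have he₆ : e₆ ∈ D.Wt := D.Wt_of_coord (by simp [e₆]) (by simp [e₆]) (by simp [e₆])
  let v : Fin s → D.Wt := fun _ => ⟨e₆, he₆⟩
  let p : D.CC s := ⟨Multiplicative.ofAdd v, x₀⟩
  have h9 : p ^ 9 = 1 := sd_nine _ (D.Wt_three' s) p (Subtype.ext D.psi_up1_cube)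
  have h3 : p ^ 3 ≠ 1 := by
    intro hc
    have h1 := sd_left_three (φ := D.actP s) p
    rw [hc] at h1
    let i₀ : Fin s := ⟨0, hs⟩
    have h2 := congrArg (fun f : Fin s → D.Wt => ((f i₀ : D.Wt) : Fin 7 → K) 0) h1
    have e1 : e₆ 0 + ((D.RR (D.psi (up 1)) *ᵥ e₆) 0 + (D.RR (D.psi (up 1)) *ᵥ (D.RR (D.psi (up 1)) *ᵥ e₆)) 0) = 0 :=
      h2.symm
    rw [RR_up1, RR_up1] at e1
    simp [e₆] at e1
    have h3' := D.three
    have e2 : (1 : K) = 0 := by
      have e3 : (3 : K) * 2 = 0 := by rw [h3', zero_mul]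
      linear_combination e1 + e3
    exact one_ne_zero e2
  haveI : Fact (Nat.Prime 3) := ⟨by norm_num⟩
  refine ⟨p, ?_⟩
  have := orderOf_eq_prime_pow (p := 3) (n := 1) (x := p) (by simpa using h3) (by norm_num; exact h9)
  simpa using this

omit hm in
theorem CC_good (s : ℕ) (hs : 0 < s) {d : ℕ} (h : d ∣ 6 ∨ d ∣ 9 ∨ d ∣ D.q - 1 ∨ d ∣ (D.q + 1) / 2) :
    ∃ p : D.CC s, orderOf p = d := by
  rcases h with h | h | h | h
  · have h3 := D.orderOf_u_three (t := 0) (a := 1) (b := 0) rfl (Or.inl one_ne_zero)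
    have h2 : orderOf D.t0 = 2 := by
      apply orderOf_eq_prime
      · rw [pow_two, D.t0_sq]
      · exact D.t0_ne
    have hc : Commute D.t0 (D.u 0 1 0) := D.t0_comm_u0 1
    have h6 : orderOf (D.t0 * D.u 0 1 0) = 6 := by
      rw [hc.orderOf_mul_eq_mul_orderOf_of_coprime, h2, h3]
      rw [h2, h3]
      norm_num
    have hy : D.t0 * D.u 0 1 0 ∈ D.LL := by
      rw [mem_LL, mul_assoc, ← hc.eq, ]
    exact D.CC_of_L s hy (by rw [h6]; exact h)
  · obtain ⟨p, hp⟩ := D.CC_nine s hs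
    exact sd_of_dvd _ p (by rw [hp]; norm_num) (by rw [hp]; exact h)
  · obtain ⟨y, hy, hoy⟩ := exists_gen_mem D.H0 D.H0_cyclic
    rw [D.card_H0] at hoy
    have hL : y ∈ D.LL := (D.mem_LL).2 (D.H0_comm hy (D.d_mem_H0 (-1)))
    exact D.CC_of_L s hL (by rw [hoy]; exact h)
  · obtain ⟨y, hy, hoy⟩ := exists_gen_mem D.X1 D.X1_cyclic
    have hc := D.card_X1
    have hc' : Nat.card D.X1 = (D.q + 1) / 2 := by omega
    rw [hc'] at hoy
    have hL : y ∈ D.LL := by
      obtain ⟨g, -, rfl⟩ := hy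
      exact (D.mem_LL).2 (D.t0_comm_psi g).symm
    exact D.CC_of_L s hL (by rw [hoy]; exact h)

/-- The arithmetic of the least common multiples. -/
theorem cube_orders (s : ℕ) (hs : 0 < s) :
    Set.range (orderOf : G × G × D.CC s → ℕ) = Set.range (orderOf : G × G × G → ℕ) := by
  apply Set.eq_of_subset_of_subset
  · rintro _ ⟨⟨a, b, p⟩, rfl⟩
    obtain ⟨g, hg⟩ := D.CC_order hm s p
    refine ⟨(a, b, g), ?_⟩
    simp only [Prod.orderOf, hg]
  · rintro _ ⟨⟨a, b, c⟩, rfl⟩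
    simp only [Prod.orderOf]
    have hgood : ∀ {d x y : ℕ}, (d ∣ 6 ∨ d ∣ 9 ∨ d ∣ D.q - 1 ∨ d ∣ (D.q + 1) / 2) → (∃ g₁ : G, orderOf g₁ = x) →
        (∃ g₂ : G, orderOf g₂ = y) → ∃ h : G × G × D.CC s, orderOf h = Nat.lcm x (Nat.lcm y d) := by
      rintro d x y hd ⟨g₁, rfl⟩ ⟨g₂, rfl⟩
      obtain ⟨p, hp⟩ := D.CC_good s hs hd
      exact ⟨(g₁, g₂, p), by simp only [Prod.orderOf, hp]⟩
    have hbad : ∀ {e x y z : ℕ}, (e = D.q - 3 ^ (D.m + 1) + 1 ∨ e = D.q + 3 ^ (D.m + 1) + 1) → x ∣ e → y ∣ e →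
        (∃ g₁ : G, orderOf g₁ = z) → ∃ h : G × G × D.CC s, orderOf h = Nat.lcm (Nat.lcm x y) z := by
      rintro e x y z he hx hy ⟨g₁, rfl⟩
      have h1 : Nat.lcm x y ∣ e := Nat.lcm_dvd hx hy
      obtain ⟨g, hg⟩ := (D.order_iff hm _).2 (Or.inr (Or.inr (Or.inr (Or.inr (by
        rcases he with rfl | rfl
        · exact Or.inl h1
        · exact Or.inr h1)))))
      exact ⟨(g, g₁, 1), by simp only [Prod.orderOf, hg, orderOf_one, Nat.lcm_one_right]⟩
    have hcl : ∀ g : G, (orderOf g ∣ 6 ∨ orderOf g ∣ 9 ∨ orderOf g ∣ D.q - 1 ∨ orderOf g ∣ (D.q + 1) / 2) ∨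
        orderOf g ∣ D.q - 3 ^ (D.m + 1) + 1 ∨ orderOf g ∣ D.q + 3 ^ (D.m + 1) + 1 := by
      intro g
      rcases (D.order_iff hm _).1 ⟨g, rfl⟩ with h | h | h | h | h | h
      · exact Or.inl (Or.inl h)
      · exact Or.inl (Or.inr (Or.inl h))
      · exact Or.inl (Or.inr (Or.inr (Or.inl h)))
      · exact Or.inl (Or.inr (Or.inr (Or.inr h)))
      · exact Or.inr (Or.inl h)
      · exact Or.inr (Or.inr h)
    have c1 : ∀ x y z : ℕ, Nat.lcm x (Nat.lcm y z) = Nat.lcm (Nat.lcm x y) z := fun x y z => (Nat.lcm_assoc x y z).symm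
    have c2 : ∀ x y z : ℕ, Nat.lcm x (Nat.lcm y z) = Nat.lcm (Nat.lcm x z) y := fun x y z => by
      rw [Nat.lcm_comm y z, Nat.lcm_assoc]
    have c3 : ∀ x y z : ℕ, Nat.lcm x (Nat.lcm y z) = Nat.lcm (Nat.lcm y z) x := fun x y z => Nat.lcm_comm _ _
    have c4 : ∀ x y z : ℕ, Nat.lcm x (Nat.lcm y z) = Nat.lcm y (Nat.lcm z x) := fun x y z => by
      rw [Nat.lcm_comm x, Nat.lcm_assoc]
    have c5 : ∀ x y z : ℕ, Nat.lcm x (Nat.lcm y z) = Nat.lcm x (Nat.lcm z y) := fun x y z => by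
      rw [Nat.lcm_comm y z]
    rcases hcl c with hc | hc
    · exact hgood hc ⟨a, rfl⟩ ⟨b, rfl⟩
    rcases hcl b with hb | hb
    · rw [c5]
      exact hgood hb ⟨a, rfl⟩ ⟨c, rfl⟩
    rcases hcl a with ha | ha
    · rw [c4]
      exact hgood ha ⟨b, rfl⟩ ⟨c, rfl⟩
    rcases ha with ha | ha <;> rcases hb with hb | hb <;> rcases hc with hc | hc
    · rw [c1]
      exact hbad (Or.inl rfl) ha hb ⟨c, rfl⟩
    · rw [c1]
      exact hbad (Or.inl rfl) ha hb ⟨c, rfl⟩
    · rw [c2]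
      exact hbad (Or.inl rfl) ha hc ⟨b, rfl⟩
    · rw [c3]
      exact hbad (Or.inr rfl) hb hc ⟨a, rfl⟩
    · rw [c3]
      exact hbad (Or.inl rfl) hb hc ⟨a, rfl⟩
    · rw [c2]
      exact hbad (Or.inr rfl) ha hc ⟨b, rfl⟩
    · rw [c1]
      exact hbad (Or.inr rfl) ha hb ⟨c, rfl⟩
    · rw [c1]
      exact hbad (Or.inr rfl) ha hb ⟨c, rfl⟩

/-- The final form. -/
theorem cube_main (N : ℕ) : ∃ (H : Type) (_ : _root_.Group H) (_ : Fintype H), N < Fintype.card H ∧
    Set.range (orderOf : H → ℕ) = Set.range (orderOf : G × G × G → ℕ) := by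
  classical
  let s := N + 1
  have hs : 0 < s := Nat.succ_pos N
  have hfin : Finite (D.CC s) := by
    have hf1 : Finite (Multiplicative (Fin s → D.Wt) × D.LL) := inferInstance
    exact Finite.of_injective (fun p : D.CC s => (p.left, p.right)) (fun p p' h => by
      have h1 := congrArg Prod.fst h
      have h2 := congrArg Prod.snd h
      exact SemidirectProduct.ext h1 h2)
  have hrange := D.cube_orders hm s hs
  obtain ⟨H, i1, i2, hc, hr⟩ := exists_type_zero (X := G × G × D.CC s)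
  refine ⟨H, i1, i2, ?_, hr.trans hrange⟩
  · rw [hc]
    have hinj : Function.Injective (fun f : Fin s → D.Wt => (((1 : G), (1 : G),
        (SemidirectProduct.inl (Multiplicative.ofAdd f) : D.CC s)) : G × G × D.CC s)) := by
      intro f g h
      have h1 := congrArg (fun z : G × G × D.CC s => z.2.2.left) h
      exact Multiplicative.ofAdd.injective h1
    have h1 := Nat.card_le_card_of_injective _ hinj
    have h2 : Nat.card (Fin s → D.Wt) = Nat.card D.Wt ^ s := by
      rw [Nat.card_fun]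
      simp
    have he₆ : (![0, 0, 0, 0, 0, 0, 1] : Fin 7 → K) ∈ D.Wt :=
      D.Wt_of_coord (by simp) (by simp) (by simp)
    have h3 : 1 < Nat.card D.Wt := by
      apply Finite.one_lt_card_iff_nontrivial.2
      refine ⟨⟨0, ⟨_, he₆⟩, ?_⟩⟩
      intro hc
      have h4 := congrFun (congrArg Subtype.val hc) 6
      simp at h4
    have h4 : 2 ^ s ≤ Nat.card D.Wt ^ s := Nat.pow_le_pow_left h3 s
    have h5 : N < 2 ^ s := by
      calc N < 2 ^ N := Nat.lt_two_pow_self
        _ ≤ 2 ^ s := Nat.pow_le_pow_right (by norm_num) (Nat.le_succ N)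
    omega

end main

end Dat

end Cfsg.Agent.Lib.Ree.Abs
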